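import Cfsg.Agent.H50.RG.LStmts
import Cfsg.Agent.H200.LinFixB

/-!
# RG-L10 (S5714): no pairing is invariant under an irreducible element of the right parity (helper84)
-/

set_option autoImplicit false

namespace Cfsg.Agent.H84.RG

open Module Polynomial Cfsg.Agent.H200.LinFix Cfsg.Agent.H50.RG Cfsg.Agent.H847.Bs

universe u v

/-- the roots of the minimal polynomial of `z` in a finite field are the `q ^ i`-th powers of `z` -/
theorem exists_pow {F L : Type*} [Field F] [Finite F] [Field L] [Finite L] [Algebra F L] {z u : L}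
    (h : aeval u (minpoly F z) = 0) : ∃ i : ℕ, u = z ^ (Nat.card F ^ i) := by
  have := Fintype.ofFinite F
  have hint : IsIntegral F z := Algebra.IsIntegral.isIntegral z
  have h1 : IsConjRoot F z u := isConjRoot_of_aeval_eq_zero hint h
  obtain ⟨σ, hσ⟩ := isConjRoot_iff_exists_algEquiv.1 h1.symm
  obtain ⟨i, hi⟩ := (FiniteField.bijective_frobeniusAlgEquivOfAlgebraic_pow F L).2 σ
  refine ⟨i, ?_⟩
  have hi' : FiniteField.frobeniusAlgEquivOfAlgebraic F L ^ (i : ℕ) = σ := hi
  rw [← hσ, ← hi', AlgEquiv.coe_pow, FiniteField.coe_frobeniusAlgEquivOfAlgebraic_iterate, Nat.card_eq_fintype_card]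

section

variable {F X L : Type*} [Field F] [AddCommGroup X] [Module F X] [Field L] [Algebra F L]

/-- the adjoint of a polynomial in `z` -/
theorem pairing_poly (φ : L →ₐ[F] Module.End F X) {z : Module.End F X} {z₀ : L} (hφ : φ z₀ = z) (hz0 : z₀ ≠ 0)
    (σ : F →+* F) (B : X → X → F)
    (h1 : ∀ x y w, B (x + y) w = B x w + B y w) (h2 : ∀ x y w, B x (y + w) = B x y + B x w)
    (h3 : ∀ (a : F) (x y), B (a • x) y = a * B x y) (h4 : ∀ (a : F) (x y), B x (a • y) = σ a * B x y)
    (h5 : ∀ a, σ (σ a) = a) (h6 : ∀ x y, B (z x) (z y) = B x y) (f : F[X]) (x y : X) :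
    B (φ (aeval z₀ f) x) y = B x (φ (aeval z₀⁻¹ (f.map σ)) y) := by
  have hinv : ∀ y, z (φ z₀⁻¹ y) = y := by
    intro y
    rw [← hφ, ← Module.End.mul_apply, ← map_mul, mul_inv_cancel₀ hz0, map_one, Module.End.one_apply]
  have hadj : ∀ x y, B (z x) y = B x (φ z₀⁻¹ y) := by
    intro x y
    rw [← h6 x, hinv]
  have hpow : ∀ (n : ℕ) x y, B ((φ (z₀ ^ n)) x) y = B x (φ (z₀⁻¹ ^ n) y) := by
    intro n
    induction n with
    | zero => intro x y; rw [pow_zero, pow_zero, map_one, Module.End.one_apply, Module.End.one_apply]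
    | succ n ih =>
      intro x y
      rw [pow_succ, map_mul, Module.End.mul_apply, ih, hφ, hadj, ← Module.End.mul_apply, ← map_mul, ← pow_succ']
  induction f using Polynomial.induction_on' generalizing x y with
  | add p q hp hq =>
    rw [map_add, map_add, LinearMap.add_apply, h1, hp, hq, Polynomial.map_add, map_add, map_add,
      LinearMap.add_apply, h2]
  | monomial n a =>
    rw [aeval_monomial, Polynomial.map_monomial, aeval_monomial, map_mul, map_mul, Module.End.mul_apply,
      Module.End.mul_apply, AlgHom.commutes, AlgHom.commutes, Module.algebraMap_end_apply,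
      Module.algebraMap_end_apply, h3, h4, h5, hpow]

/-- either the pairing is zero, or `z⁻¹` is a root of the image of the minimal polynomial -/
theorem dichotomy (φ : L →ₐ[F] Module.End F X) {z : Module.End F X} {z₀ : L} (hφ : φ z₀ = z) (hz0 : z₀ ≠ 0)
    (σ : F →+* F) (B : X → X → F)
    (h1 : ∀ x y w, B (x + y) w = B x w + B y w) (h2 : ∀ x y w, B x (y + w) = B x y + B x w)
    (h3 : ∀ (a : F) (x y), B (a • x) y = a * B x y) (h4 : ∀ (a : F) (x y), B x (a • y) = σ a * B x y)
    (h5 : ∀ a, σ (σ a) = a) (h6 : ∀ x y, B (z x) (z y) = B x y) :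
    (∀ x y, B x y = 0) ∨ aeval z₀⁻¹ ((minpoly F z₀).map σ) = 0 := by
  by_cases hw : aeval z₀⁻¹ ((minpoly F z₀).map σ) = 0
  · exact Or.inr hw
  · left
    intro x y
    have h7 := pairing_poly φ hφ hz0 σ B h1 h2 h3 h4 h5 h6 (minpoly F z₀) x
      (φ (aeval z₀⁻¹ ((minpoly F z₀).map σ))⁻¹ y)
    have h0l : B 0 (φ (aeval z₀⁻¹ ((minpoly F z₀).map σ))⁻¹ y) = 0 := by
      have := h3 0 0 (φ (aeval z₀⁻¹ ((minpoly F z₀).map σ))⁻¹ y)
      rwa [zero_smul, zero_mul] at this
    rw [minpoly.aeval, map_zero, LinearMap.zero_apply, h0l, ← Module.End.mul_apply, ← map_mul,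
      mul_inv_cancel₀ hw, map_one, Module.End.one_apply] at h7
    exact h7.symm

end

/-- the field of an irreducible element -/
theorem exists_field {F : Type u} {X : Type v} [Field F] [Finite F] [AddCommGroup X] [Module F X] [Module.Finite F X]
    (z : X ≃ₗ[F] X) (hz : Irr z ⊤) : ∃ (L : Type u) (_ : Field L) (_ : Finite L) (_ : Algebra F L)
      (φ : L →ₐ[F] Module.End F X) (z₀ : L), φ z₀ = z.toLinearMap ∧ z₀ ≠ 0 ∧ ∀ n : ℕ, z₀ ^ n = 1 → z ^ n = 1 := by
  have hX : Finite X := Module.finite_of_finite F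
  have hnt : Nontrivial X := by
    by_contra hn
    rw [not_nontrivial_iff_subsingleton] at hn
    exact hz.ne_bot (Subsingleton.elim _ _)
  have hirr : ∀ U : Submodule F X, (∀ u ∈ U, z.toLinearMap u ∈ U) → U = ⊥ ∨ U = ⊤ :=
    fun U hU => hz.min U le_top hU
  have hP : Fact (Irreducible (minpoly F z.toLinearMap)) := ⟨irreducible_minpoly hirr⟩
  have hnt' : Nontrivial (Module.End F X) := Module.End.instNontrivial
  have hinj : Function.Injective (phi z.toLinearMap) := (phi z.toLinearMap).toRingHom.injective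
  have hE : Finite (Module.End F X) := Finite.of_injective (fun f : Module.End F X => (f : X → X)) DFunLike.coe_injective
  have hfin : Finite (KK z.toLinearMap) := Finite.of_injective _ hinj
  have hφ : phi z.toLinearMap (AdjoinRoot.root (minpoly F z.toLinearMap)) = z.toLinearMap := phi_root
  refine ⟨KK z.toLinearMap, inferInstance, hfin, inferInstance, phi z.toLinearMap, AdjoinRoot.root _, hφ, ?_, ?_⟩
  · intro h
    rw [h, map_zero] at hφ
    obtain ⟨x, hx⟩ := exists_ne (0 : X)
    have h7 : z.toLinearMap x = 0 := by rw [← hφ]; rfl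
    exact hx (z.map_eq_zero_iff.1 h7)
  · intro n hn
    have h7 : z.toLinearMap ^ n = 1 := by
      have h8 := congrArg (phi z.toLinearMap) hn
      rwa [map_pow, map_one, hφ] at h8
    have h9 : ∀ m : ℕ, ∀ x, (z ^ m) x = (z.toLinearMap ^ m) x := by
      intro m
      induction m with
      | zero => intro x; rfl
      | succ m ih =>
        intro x
        rw [pow_succ, pow_succ]
        exact ih (z x)
    ext x
    rw [h9, h7]
    rfl

theorem zmod_two : ∀ a : ZMod 2, a = 0 ∨ a = 1 := by decide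

/-- the roots of the image of the minimal polynomial of `z` under `a ↦ a ^ t` -/
theorem exists_pow_of_map {F L : Type*} [Field F] [Finite F] [Field L] [Finite L] [Algebra F L] {p : ℕ} [Fact p.Prime]
    [CharP F p] [CharP L p] (k : ℕ) {z u : L} (h : aeval u ((minpoly F z).map (iterateFrobenius F p k)) = 0) :
    ∃ i : ℕ, u = z ^ (Nat.card F ^ i * p ^ k) := by
  obtain ⟨w, hw⟩ := (Finite.injective_iff_surjective.1 (iterateFrobenius L p k).injective) u
  have h1 : iterateFrobenius L p k (aeval w (minpoly F z)) = 0 := by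
    rw [aeval_def, hom_eval₂, hw]
    rw [aeval_def, eval₂_map] at h
    rw [← h]
    congr 1
    ext a
    simp only [RingHom.comp_apply, iterateFrobenius_def, map_pow]
  have h2 : aeval w (minpoly F z) = 0 := (map_eq_zero_iff _ (iterateFrobenius L p k).injective).1 h1
  obtain ⟨i, hi⟩ := exists_pow h2
  refine ⟨i, ?_⟩
  rw [← hw, iterateFrobenius_def, hi, ← pow_mul]

theorem l10 : L10 := by
  intro F X _ _ _ _ _ e r z he hz hr hrd hord s hs B h1 h2 h3 h4 h6
  obtain ⟨L, _, _, _, φ, z₀, hφ, hz0, hz1⟩ := exists_field z hz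
  have hdvd : ∀ n : ℕ, z₀ ^ n = 1 → r ∣ n := fun n hn => hrd.trans (orderOf_dvd_of_pow_eq_one (hz1 n hn))
  have hr' : Fact r.Prime := ⟨hr⟩
  have h6' : ∀ x y, B (z.toLinearMap x) (z.toLinearMap y) = B x y := h6
  obtain ⟨hs, he2⟩ | ⟨⟨t, ht, hs⟩, he2⟩ := hs
  · obtain h | h := dichotomy φ hφ hz0 (RingHom.id F) B h1 h2 h3
      (fun a x y => by rw [h4, hs]; rfl) (fun a => rfl) h6'
    · exact h
    · exfalso
      rw [Polynomial.map_id] at h
      obtain ⟨i, hi⟩ := exists_pow h
      have h7 : z₀ ^ (Nat.card F ^ i + 1) = 1 := by rw [pow_succ, ← hi, inv_mul_cancel₀ hz0]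
      have h8 : (((Nat.card F) : ℕ) : ZMod r) ^ i = -1 := by
        have h9 := (ZMod.natCast_eq_zero_iff _ _).2 (hdvd _ h7)
        push_cast at h9
        exact eq_neg_of_add_eq_zero_left h9
      have h10 : e ∣ 2 * i := by
        rw [← hord]
        apply orderOf_dvd_of_pow_eq_one
        rw [mul_comm, pow_mul, h8, neg_one_sq]
      have h11 : e ∣ i := (Nat.Coprime.dvd_mul_left (Nat.Coprime.symm he2.coprime_two_left)).1 h10
      rw [← hord] at h11
      have h12 := orderOf_dvd_iff_pow_eq_one.1 h11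
      rw [h8] at h12
      have h13 : r = 2 := by
        have h14 : ((2 : ℕ) : ZMod r) = 0 := by
          push_cast
          have : (1 : ZMod r) + 1 = 0 := by
            nth_rewrite 1 [← h12]
            ring
          rw [← this]
          norm_num
        have h15 := (ZMod.natCast_eq_zero_iff _ _).1 h14
        exact (Nat.prime_dvd_prime_iff_eq hr Nat.prime_two).1 h15
      subst h13
      rcases zmod_two ((Nat.card F : ℕ) : ZMod 2) with h17 | h17
      · rw [h17] at hord
        have h18 : orderOf (0 : ZMod 2) = 0 := orderOf_eq_zero (by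
          rw [isOfFinOrder_iff_pow_eq_one]
          rintro ⟨n, hn, hn'⟩
          rw [zero_pow hn.ne'] at hn'
          exact zero_ne_one hn')
        omega
      · rw [h17, orderOf_one] at hord
        omega
  · obtain ⟨p, hp, hcp⟩ : ∃ p : ℕ, ∃ _ : Fact p.Prime, CharP F p := by
      obtain ⟨p, hp⟩ := CharP.exists F
      exact ⟨p, ⟨CharP.char_is_prime F p⟩, hp⟩
    have hcL : CharP L p := charP_of_injective_algebraMap (algebraMap F L).injective p
    have := Fintype.ofFinite F
    obtain ⟨n, hn, hcard⟩ := FiniteField.card F p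
    rw [← Nat.card_eq_fintype_card] at hcard
    obtain ⟨k, hk, rfl⟩ : ∃ k ≤ (n : ℕ), t = p ^ k := by
      have h7 : t ∣ p ^ (n : ℕ) := by
        rw [← hcard, ht]
        exact dvd_pow_self t two_ne_zero
      exact (Nat.dvd_prime_pow hp.out).1 h7
    obtain h | h := dichotomy φ hφ hz0 (iterateFrobenius F p k) B h1 h2 h3
      (fun a x y => by rw [h4, hs, iterateFrobenius_def]) (fun a => by
        rw [iterateFrobenius_def, iterateFrobenius_def, ← pow_mul, ← pow_two, ← ht, Nat.card_eq_fintype_card,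
          FiniteField.pow_card]) h6'
    · exact h
    · exfalso
      obtain ⟨i, hi⟩ := exists_pow_of_map k h
      have h7 : z₀ ^ (Nat.card F ^ i * p ^ k + 1) = 1 := by rw [pow_succ, ← hi, inv_mul_cancel₀ hz0]
      have h8 : (((Nat.card F) : ℕ) : ZMod r) ^ i * ((p ^ k : ℕ) : ZMod r) = -1 := by
        have h9 := (ZMod.natCast_eq_zero_iff _ _).2 (hdvd _ h7)
        push_cast at h9 ⊢
        exact eq_neg_of_add_eq_zero_left h9
      have h9 : ((Nat.card F : ℕ) : ZMod r) = ((p ^ k : ℕ) : ZMod r) ^ 2 := by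
        rw [ht]
        push_cast
        rfl
      have h10 : e ∣ 2 * i + 1 := by
        rw [← hord]
        apply orderOf_dvd_of_pow_eq_one
        have h11 : ((Nat.card F : ℕ) : ZMod r) ^ (2 * i + 1) =
            (((Nat.card F : ℕ) : ZMod r) ^ i * ((p ^ k : ℕ) : ZMod r)) ^ 2 := by
          rw [mul_pow, ← h9]
          ring
        rw [h11, h8, neg_one_sq]
      obtain ⟨c, hc⟩ := h10
      obtain ⟨d, hd⟩ := he2
      have : 2 * i + 1 = 2 * (d * c) := by rw [hc, hd]; ring
      omega

end Cfsg.Agent.H84.RG
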